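import Mathlib
import Cfsg.Agent.Lib.Lang.Cyclic
import Cfsg.Agent.Lib.RGD.Inst
import Cfsg.Agent.Lib.MatConj.SylowTorus

/-!
# Homocyclic subgroups of maximal tori
-/

set_option autoImplicit false

namespace CfsgLib.Lang

open Cfsg.Lie Cfsg.Lie.ChevalleyDatum CfsgLib.RGD CfsgLib.Chev CfsgLib.Weyl CfsgLib.ChevAut

theorem isLocalRing_zmod {r k : ℕ} (hr : r.Prime) (hk : 0 < k) : IsLocalRing (ZMod (r ^ k)) := by
  have : Fact (1 < r ^ k) := ⟨Nat.one_lt_pow hk.ne' hr.one_lt⟩
  refine IsLocalRing.of_isUnit_or_isUnit_one_sub_self fun x => ?_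
  obtain ⟨a, rfl⟩ := ZMod.natCast_zmod_surjective x
  by_cases h : r ∣ a
  · exact Or.inr (IsNilpotent.isUnit_one_sub ⟨k, by
      rw [← Nat.cast_pow, ZMod.natCast_eq_zero_iff]; exact pow_dvd_pow_of_dvd h k⟩)
  · exact Or.inl ((ZMod.isUnit_natCast_iff_not_dvd_pow hr hk).2 h)

theorem free_of_isProj {R M : Type*} [CommRing R] [IsLocalRing R] [AddCommGroup M] [Module R M] [Module.Free R M]
    [Module.Finite R M] {p : Submodule R M} {e : M →ₗ[R] M} (h : LinearMap.IsProj p e) :
    Module.Free R p ∧ Module.Finite R p := by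
  have : Module.Finite R p := Module.Finite.of_surjective h.codRestrict fun x => ⟨x, h.codRestrict_apply_cod x⟩
  have := Module.Projective.of_split p.subtype h.codRestrict (LinearMap.ext h.codRestrict_apply_cod)
  exact ⟨Module.free_of_flat_of_isLocalRing, inferInstance⟩

/-- the eigenspace of an operator of finite order over a local ring is free, of rank given by a trace -/
theorem exists_basis_eigenspace {R M : Type*} [CommRing R] [IsLocalRing R] [AddCommGroup M] [Module R M] [Module.Free R M]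
    [Module.Finite R M] (T : Module.End R M) {q : R} {n : ℕ} (hT : T ^ n = 1) (hq : q ^ n = 1) (hn : IsUnit (n : R)) :
    ∃ a ≤ Module.finrank R M, (n * a : R) = ∑ j ∈ Finset.range n, q ^ (n - j) * LinearMap.trace R M (T ^ j) ∧
      ∃ φ : (Fin a → R) →ₗ[R] M, Function.Injective φ ∧ ∀ x, T (φ x) = q • φ x := by
  obtain ⟨u, hu⟩ := hn.exists_left_inv
  let e : Module.End R M := u • ∑ j ∈ Finset.range n, q ^ (n - j) • T ^ j
  have h : LinearMap.IsProj (LinearMap.eqLocus T (q • LinearMap.id)) e := by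
    refine ⟨fun x => ?_, fun x hx => ?_⟩
    · have h1 := Finset.sum_range_succ' (fun j => q ^ (n + 1 - j) • (T ^ j) x) n
      rw [Finset.sum_range_succ, hT, pow_zero, Nat.sub_zero, pow_succ q n, hq, Nat.add_sub_cancel_left, pow_one, one_mul,
        add_left_inj] at h1
      simp only [LinearMap.mem_eqLocus, e, LinearMap.smul_apply, LinearMap.sum_apply, map_smul, map_sum,
        LinearMap.id_apply]
      congr 1
      simp only [Nat.add_sub_add_right, pow_succ' T, Module.End.mul_apply] at h1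
      rw [← h1]
      exact Finset.sum_congr rfl fun j hj => by
        rw [smul_smul, ← pow_succ, Nat.sub_add_comm (Finset.mem_range.1 hj).le]
    · have h1 : ∀ j, (T ^ j) x = q ^ j • x := fun j => by
        induction j with
        | zero => simp
        | succ j ih => rw [pow_succ', Module.End.mul_apply, ih, map_smul, show T x = q • x from hx, smul_smul, pow_succ]
      simp only [e, LinearMap.smul_apply, LinearMap.sum_apply, h1, smul_smul, ← pow_add]
      rw [Finset.sum_congr rfl fun j hj => by rw [Nat.sub_add_cancel (Finset.mem_range.1 hj).le, hq, one_smul]]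
      simp [← Nat.cast_smul_eq_nsmul R, smul_smul, hu]
  obtain ⟨_, _⟩ := free_of_isProj h
  obtain ⟨_, _⟩ := free_of_isProj (p := LinearMap.ker e) (e := 1 - e)
    ⟨fun x => by simp [h.map_id _ (h.map_mem x)], fun x hx => by simp [LinearMap.mem_ker.1 hx]⟩
  refine ⟨_, Submodule.finrank_le _, ?_, (Submodule.subtype _).comp
    (Module.finBasis R (LinearMap.eqLocus T (q • LinearMap.id))).equivFun.symm.toLinearMap,
    Subtype.val_injective.comp (LinearEquiv.injective _), 
    fun x => by
      simpa only [LinearMap.mem_eqLocus, LinearMap.smul_apply, LinearMap.id_apply, LinearMap.comp_apply,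
        Submodule.subtype_apply, LinearEquiv.coe_coe] using
        ((Module.finBasis R (LinearMap.eqLocus T (q • LinearMap.id))).equivFun.symm x).2⟩
  simp only [← h.trace, e, map_smul, map_sum, smul_eq_mul]
  rw [← mul_assoc, mul_comm _ u, hu, one_mul]

/-- value of a formal sum of monomials -/
def evM {R : Type*} [CommRing R] (q : R) (p : List (ℤ × ℕ)) : R := (p.map fun c => (c.1 : R) * q ^ c.2).sum

/-- multiplication by `x ^ j - 1` -/
def mulM (j : ℕ) (p : List (ℤ × ℕ)) : List (ℤ × ℕ) := p.map (fun c => (c.1, c.2 + j)) ++ p.map fun c => (-c.1, c.2)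

/-- a coefficient modulo `x ^ d - 1` -/
def coM (d : ℕ) (p : List (ℤ × ℕ)) (i : ℕ) : ℤ := (p.map fun c => if c.2 % d = i then c.1 else 0).sum

theorem evM_mulM {R : Type*} [CommRing R] (q : R) (j : ℕ) (p : List (ℤ × ℕ)) :
    evM q (mulM j p) = (q ^ j - 1) * evM q p := by
  simp only [evM, mulM, List.map_append, List.sum_append, List.map_map]
  induction p with
  | nil => simp
  | cons c p ih =>
    simp only [List.map_cons, List.sum_cons, Function.comp_apply, Int.cast_neg]
    linear_combination ih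

theorem evM_eq {R : Type*} [CommRing R] {q : R} {d : ℕ} (h0 : d ≠ 0) (hd : q ^ d = 1) (p : List (ℤ × ℕ)) :
    evM q p = ∑ i ∈ Finset.range d, coM d p i * q ^ i := by
  induction p with
  | nil => simp [evM, coM]
  | cons c p ih =>
    simp only [evM, coM, List.map_cons, List.sum_cons, Int.cast_add, add_mul, Finset.sum_add_distrib] at ih ⊢
    rw [ih, pow_eq_pow_mod _ hd]
    simp [Nat.mod_lt _ (Nat.pos_of_ne_zero h0)]

/-- the `d`-th root of unity is an eigenvalue of multiplicity `a` of the word -/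
def homChk (l R S T a : ℕ) (c : ℕ × List ℕ × List ℤ × List ℕ) : Bool :=
  c.2.1.all (· < l) && (Weyl.allLt l fun i => (applyW T c.2.1)^[c.1] (actT S 0 i) == actT S 0 i) &&
  (Weyl.allLt c.1 fun j => sumLt l (fun i => coT R ((applyW T c.2.1)^[j] (actT S 0 i)) i) == c.2.2.1.getD j 0) &&
  (c.2.2.2.all fun j => 0 < j && j < c.1) && Nat.ble a l && Weyl.allLt c.1 fun i =>
    coM c.1 (c.2.2.2.foldr mulM ((-(c.1 * a), 0) :: (List.range c.1).map fun j => (c.2.2.1.getD j 0, c.1 - j))) i == 0

variable {D : ChevalleyDatum} (h : RtOK D) {C A S T R : ℕ} (ht : TablesOK D C A S T) (hR : rtTab D.nroots = R)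

include ht hR in
theorem exists_eigen {a : ℕ} {c : ℕ × List ℕ × List ℤ × List ℕ} (hc : homChk D.rank R S T a c = true) {r k q : ℕ}
    [hr : Fact r.Prime] (hk : 0 < k) (hl : D.rank < r) (hrq : ¬ r ∣ q) (hd : orderOf (q : ZMod r) = c.1)
    (hq : (q : ZMod (r ^ k)) ^ c.1 = 1) : ∃ w ∈ (rootSys h).W,
      ∃ φ : (Fin a → Multiplicative (ZMod (r ^ k))) →* (Fin D.rank → Multiplicative (ZMod (r ^ k))),
        Function.Injective φ ∧ ∀ x j, (rootSys h).chr (φ x) (w ((rootSys h).simple j)) = φ x j ^ q := by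
  obtain ⟨d, L, ts, js⟩ := c
  simp only [homChk, Bool.and_eq_true, List.all_eq_true, decide_eq_true_eq, Weyl.allLt_iff, beq_iff_eq, Nat.ble_eq,
    sumLt_eq, Finset.sum_range (n := D.rank)] at hc hd hq
  obtain ⟨⟨⟨⟨⟨h1, h2⟩, h3⟩, h4⟩, h5⟩, h6⟩ := hc
  obtain ⟨L', -, e⟩ := exists_word h ht L h1
  have hw := (rootSys h).wprod_mem_W L'
  set w := (rootSys h).wprod L'
  have := isLocalRing_zmod hr.out hk
  have hd' := hd ▸ MatConj.orderOf_lt hrq
  let M : Equiv.Perm (Fin D.nroots) → Matrix (Fin D.rank) (Fin D.rank) (ZMod (r ^ k)) := fun v =>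
    Matrix.of fun j i => (rootSys h).rt (v ((rootSys h).simple j)) i
  have hM : ∀ j, M w ^ j = M (w ^ j) := fun j => by
    induction j with
    | zero => ext i j; simp [M, RootSys.rt_simple, Matrix.one_apply, eq_comm]
    | succ j ih =>
      ext a b
      simp only [pow_succ, ih, M, Matrix.mul_apply, Matrix.of_apply, pow_succ' w, Equiv.Perm.mul_apply,
        (rootSys h).rt_apply_eq_sum hw ((w ^ j) _), Int.cast_sum, Int.cast_mul]
  have hv : ∀ j (i : Fin D.rank), ((w ^ j) ((rootSys h).simple i) : ℕ) = (applyW T L)^[j] (actT S 0 i) := fun j i => by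
    rw [pow_apply_val e, rootSys_simple, ht.simple_eq i i.2]
  obtain ⟨b, b1, b2, φ, b3, b4⟩ := exists_basis_eigenspace (Matrix.toLin' (M w)) (n := d) (by
      rw [← Matrix.toLin'_pow, hM, Module.End.one_eq_id, ← Matrix.toLin'_one, ← pow_zero (M w), hM]
      congr 1; ext i j
      simp only [M, Matrix.of_apply]
      rw [show (w ^ d) ((rootSys h).simple i) = (w ^ 0) ((rootSys h).simple i) from Fin.ext (by rw [hv, hv, h2 i i.2]; rfl)])
    hq ((ZMod.isUnit_natCast_iff_not_dvd_pow hr.out hk).2 (Nat.not_dvd_of_pos_of_lt hd'.1 hd'.2))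
  have b5 : evM (q : ZMod (r ^ k)) ((-(d * a), 0) :: (List.range d).map fun j => (ts.getD j 0, d - j)) = 0 := by
    have : evM (q : ZMod (r ^ k)) _ = 0 := (evM_eq hd'.1.ne' hq _).trans
      (Finset.sum_eq_zero fun i hi => by rw [h6 i (Finset.mem_range.1 hi), Int.cast_zero, zero_mul])
    clear h6
    induction js with
    | nil => exact this
    | cons j js ih =>
      rw [List.foldr_cons, evM_mulM] at this
      obtain ⟨j1, j2⟩ := h4 j List.mem_cons_self
      have hq0 : 1 ≤ q := Nat.pos_of_ne_zero (by rintro rfl; exact hrq (dvd_zero r))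
      refine ih (fun j hj => h4 j (List.mem_cons_of_mem _ hj)) ((IsUnit.mul_right_eq_zero ?_).1 this)
      rw [← Nat.cast_pow, ← Nat.cast_one, ← Nat.cast_sub (Nat.one_le_pow _ _ hq0),
        ZMod.isUnit_natCast_iff_not_dvd_pow hr.out hk, MatConj.dvd_pow_sub_one_iff hq0, hd]
      exact Nat.not_dvd_of_pos_of_lt j1 j2
  obtain rfl : b = a := by
    have : (d * b : ZMod (r ^ k)) = d * a := by
      rw [b2, ← sub_eq_zero, ← b5, evM, List.map_cons, List.sum_cons, List.map_map,
        ← List.sum_toFinset _ List.nodup_range, List.toFinset_range, Finset.sum_congr rfl fun j hj => ?_]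
      · push_cast; ring
      · rw [← Matrix.toLin'_pow, hM, Matrix.trace_toLin'_eq, mul_comm]
        simp only [Function.comp_apply, ← h3 j (Finset.mem_range.1 hj), Matrix.trace, Matrix.diag, M, Matrix.of_apply,
          rootSys_rt, rt, hR, hv, Int.cast_sum]
    have := congrArg (ZMod.castHom (dvd_pow_self r hk.ne') (ZMod r)) this
    simp only [map_mul, map_natCast] at this
    rw [Module.finrank_fin_fun] at b1
    have := (ZMod.natCast_eq_natCast_iff' _ _ _).1 (mul_left_cancel₀
      (mt (ZMod.natCast_eq_zero_iff _ _).1 (Nat.not_dvd_of_pos_of_lt hd'.1 hd'.2)) this)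
    rwa [Nat.mod_eq_of_lt (by omega), Nat.mod_eq_of_lt (by omega)] at this
  refine ⟨w, hw, MonoidHom.mk' (fun x i => Multiplicative.ofAdd (φ (fun j => (x j).toAdd) i)) fun x y => funext fun i =>
    congrArg Multiplicative.ofAdd (congrFun (φ.map_add (fun j => (x j).toAdd) fun j => (y j).toAdd) i),
    fun x y e => b3 e, fun x j => ?_⟩
  apply Multiplicative.toAdd.injective
  have := congrFun (b4 fun j => (x j).toAdd) j
  simpa [RootSys.chr, toAdd_prod, M, Matrix.mulVec, dotProduct] using this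

variable {F : Type*} [Field F] [Fintype F] [Good D]

theorem exists_inj_hom (hm : D ∈ [chevG2, chevB2, chevD4, chevF4, chevE6, chevE7, chevE8]) {m e : ℕ}
    (hq : m.Coprime (Fintype.card F)) (he : e.Coprime m) (he1 : ∀ c, tau D F (c ^ e) ∈ D.diagonalSubgroup F)
    {w : Equiv.Perm (Fin D.nroots)} (hw : w ∈ (rootSys h).W) {X : Type*} [Group X]
    (φ : X →* (Fin D.rank → Multiplicative (ZMod m))) (h1 : Function.Injective φ)
    (h2 : ∀ x j, (rootSys h).chr (φ x) (w ((rootSys h).simple j)) = φ x j ^ Fintype.card F) :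
    ∃ θ : X →* D.group F, Function.Injective θ := by
  let f := algebraMap F (AlgebraicClosure F)
  obtain ⟨ψ, hψ⟩ := exists_frob f
  obtain ⟨ζ, hζ⟩ := exists_primitiveRoot_units f hq
  obtain ⟨z, hz, -, hfix⟩ := exists_torus h hm f hψ hw
  let ε := (Subgroup.zpowers ζ).subtype.comp (AddEquiv.toMultiplicativeLeft hζ.zmodEquivZPowers).toMonoidHom
  have hε : Function.Injective ε := Subtype.val_injective.comp (MulEquiv.injective _)
  let θ := ((MulAut.conj z).toMonoidHom.comp (tau D _)).comp ((ε.compLeft _).comp φ)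
  have hθ : ∀ x, θ x ∈ (D.group F).map (glm D f) := fun x => by
    obtain ⟨g, hg, e1⟩ := exists_pow_eq_glm h f hψ he1 (g := θ x)
      (mul_mem (mul_mem hz (tau_mem_group h (tau_mem_of_algClosed hm _))) (inv_mem hz))
      ((hfix _).2 fun j => ((rootSys h).map_chr ε _ _).symm.trans (by rw [h2, map_pow]; rfl))
    have : θ x ^ m = 1 := by
      have : φ x ^ m = 1 := funext fun i => Multiplicative.toAdd.injective (by simp)
      rw [← map_pow, MonoidHom.comp_apply, MonoidHom.comp_apply _ φ, map_pow φ, this, map_one, map_one]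
    obtain ⟨k, hk⟩ := exists_pow_eq_self_of_coprime (he.coprime_dvd_right (orderOf_dvd_of_pow_eq_one this))
    exact hk ▸ pow_mem (e1 ▸ Subgroup.mem_map_of_mem _ hg) k
  exact ⟨((D.group F).equivMapOfInjective _ (glm_injective f)).symm.toMonoidHom.comp (θ.codRestrict _ hθ),
    ((D.group F).equivMapOfInjective _ (glm_injective f)).symm.injective.comp ((θ.injective_codRestrict _ hθ).2 (((MulAut.conj z).injective.comp
      ((isTor_tau h).inj (stSys_nondeg h))).comp (hε.comp_left.comp h1)))⟩

include h ht hR in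
theorem sylow_homocyclic (hm : D ∈ [chevG2, chevB2, chevD4, chevF4, chevE6, chevE7, chevE8]) {ds : List ℕ}
    (hds : HasChain D ds) {P₁ P₂ Q₁ Q₂ : List (List ℤ)} {dl : List ℕ} (hs : SmithCert D P₁ P₂ Q₁ Q₂ dl) {e k : ℕ}
    (hd : ∀ i < D.rank, dl.getD i 0 ∣ e) (he : e ∣ ds.prod) (hk : k ∣ ds.prod)
    (hH : k * Nat.card (D.diagonalSubgroup F) = (Fintype.card F - 1) ^ D.rank)
    (tab : List (ℕ × List ℕ × List ℤ × List ℕ))
    (h1 : (tab.all fun c => homChk D.rank R S T (ds.filter (c.1 ∣ ·)).length c) = true)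
    (h2 : ∀ x ∈ ds, ∀ d ∈ x.divisors, d ∈ tab.map Prod.fst) (h3 : ∀ r ≤ D.rank, r.Prime → r ∣ ds.prod)
    {r : ℕ} [hr : Fact r.Prime] (hrq : ¬ r ∣ Fintype.card F) (hrW : ¬ r ∣ ds.prod) (P : Sylow r (D.group F)) :
    Nonempty ((P : Subgroup (D.group F)) ≃* (Fin (ds.filter (orderOf (Fintype.card F : ZMod r) ∣ ·)).length →
      Multiplicative (ZMod (r ^ MatConj.cycVal (Fintype.card F) r)))) := by
  have hq : 2 ≤ Fintype.card F := Fintype.one_lt_card
  have a1 : ∀ x ∈ ds, ¬ r ∣ x := fun x hx e => hrW (e.trans (List.dvd_prod hx))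
  have a2 : ∀ x ∈ ds, x ≠ 0 := fun x hx e => a1 x hx (e ▸ dvd_zero r)
  have a3 : (Nat.card (D.group F)).factorization r =
      (ds.filter (orderOf (Fintype.card F : ZMod r) ∣ ·)).length * MatConj.cycVal (Fintype.card F) r := by
    have := congrArg (·.factorization r) (mul_card_group h hds hds.2.1 (by rwa [Nat.card_eq_fintype_card (α := F)]))
    have b1 : ∀ x ∈ ds, Fintype.card F ^ x - 1 ≠ 0 := fun x hx => Nat.sub_ne_zero_of_lt (Nat.one_lt_pow (a2 x hx) hq)
    beta_reduce at this
    rw [Nat.factorization_mul (by rintro rfl; exact hrW (zero_dvd_iff.1 hk ▸ dvd_zero r)) Nat.card_pos.ne',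
      Nat.card_eq_fintype_card (α := F),
      Nat.factorization_mul (by positivity) (List.prod_ne_zero (by simpa using fun x hx => b1 x hx)),
      Finsupp.add_apply, Finsupp.add_apply, Nat.factorization_eq_zero_of_not_dvd fun e => hrW (e.trans hk),
      Nat.factorization_eq_zero_of_not_dvd (mt hr.out.dvd_of_dvd_pow hrq), zero_add, zero_add] at this
    rw [this]
    clear this hds he hk h1 h2 h3 hrW a2
    induction ds with
    | nil => simp
    | cons x ds ih =>
      rw [List.forall_mem_cons] at a1 b1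
      rw [List.map_cons, List.prod_cons, Nat.factorization_mul b1.1
        (List.prod_ne_zero (by simpa using fun x hx => b1.2 x hx)), Finsupp.add_apply, ih a1.2 b1.2,
        MatConj.factorization_pow_sub_one hq hrq a1.1, List.filter_cons]
      split_ifs with h h' h' <;> simp_all [add_mul, add_comm]
  suffices ∃ θ : (Fin (ds.filter (orderOf (Fintype.card F : ZMod r) ∣ ·)).length →
      Multiplicative (ZMod (r ^ MatConj.cycVal (Fintype.card F) r))) →* D.group F, Function.Injective θ by
    obtain ⟨θ, hθ⟩ := this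
    exact MatConj.nonempty_sylow_equiv θ hθ (by rw [MatConj.card_pi_zmod, a3, ← pow_mul, mul_comm]) P
  rcases Nat.eq_zero_or_pos (MatConj.cycVal (Fintype.card F) r) with h0 | h0
  · rw [h0, pow_zero]; exact ⟨1, Function.injective_of_subsingleton _⟩
  rcases Nat.eq_zero_or_pos (ds.filter (orderOf (Fintype.card F : ZMod r) ∣ ·)).length with h4 | h4
  · rw [h4]; exact ⟨1, Function.injective_of_subsingleton _⟩
  obtain ⟨x, hx⟩ := List.exists_mem_of_length_pos h4
  rw [List.mem_filter, decide_eq_true_eq] at hx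
  obtain ⟨c, hc, e1⟩ := List.mem_map.1 (h2 x hx.1 _ (Nat.mem_divisors.2 ⟨hx.2, a2 x hx.1⟩))
  have hd' := MatConj.orderOf_lt hrq
  obtain ⟨w, hw, φ, b1, b2⟩ := exists_eigen h ht hR (List.all_eq_true.1 h1 c hc) h0
    (lt_of_not_ge fun e => hrW (h3 r e hr.out)) hrq e1.symm (by
      rw [e1, ← sub_eq_zero, ← Nat.cast_pow, ← Nat.cast_one, ← Nat.cast_sub (Nat.one_le_pow _ _ (by omega)),
        ZMod.natCast_eq_zero_iff]
      have := MatConj.factorization_pow_sub_one hq hrq (Nat.not_dvd_of_pos_of_lt hd'.1 hd'.2)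
      rw [if_pos dvd_rfl] at this
      exact this ▸ Nat.ordProj_dvd _ _)
  rw [← e1]
  exact exists_inj_hom h hm (Nat.Coprime.pow_left _ (hr.out.coprime_iff_not_dvd.2 hrq))
    (Nat.Coprime.pow_right _ (hr.out.coprime_iff_not_dvd.2 fun e => hrW (e.trans he)).symm)
    (tau_pow_mem h hs fun i hi x => by
      obtain ⟨j, rfl⟩ := hd i hi
      exact ⟨x ^ j, by rw [← pow_mul, mul_comm]⟩) hw φ b1 b2

end CfsgLib.Lang
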